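import Mathlib
import Cfsg.Agent.H378.Spr.F4twoC

/-!
# The involutions of `F₄(2)` (helper378)

For every involution `a` of `F₄(2)` there is an `x` such that every `a`-invariant subgroup over `x` has order divisible by
`13` and `17`.
-/

set_option autoImplicit false

namespace Cfsg.Agent.H378.F4two

open Cfsg Cfsg.Lie Cfsg.Agent.ChevalleyStructure Cfsg.Agent.ChevalleyStructure.Columns CoxeterSystem
  Cfsg.Agent.ChevalleyStructure.Elts Cfsg.Agent.ChevalleyStructure.RootVec Cfsg.Agent.ChevalleyStructure.CoxeterGeom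
  Cfsg.Agent.Tits.Roots Cfsg.Agent.Nodes.Reps Cfsg.Agent.Nodes.RGDChev Cfsg.Agent.H378.MVec Cfsg.Agent.H378.F4Dat
  Cfsg.Agent.BpExc.RowsUntw Cfsg.Agent.Nodes.BNOf

universe u

/-! ### Codes -/

/-- the code of a vector -/
def cdv (x : Fin 4 → ℤ) : ℤ := x 0 + 32 * x 1 + 1024 * x 2 + 32768 * x 3

theorem cdv_add (x y : Fin 4 → ℤ) : cdv (x + y) = cdv x + cdv y := by
  unfold cdv
  simp only [Pi.add_apply]
  ring

theorem cdv_sub (x y : Fin 4 → ℤ) : cdv (x - y) = cdv x - cdv y := by
  unfold cdv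
  simp only [Pi.sub_apply]
  ring

theorem cdv_smul (c : ℤ) (x : Fin 4 → ℤ) : cdv (c • x) = c * cdv x := by
  unfold cdv
  simp only [Pi.smul_apply, smul_eq_mul]
  ring

theorem chk_cds : ((List.range 48).all fun r =>
    decide (cds.getD r 0 = cf r 0 + 32 * cf r 1 + 1024 * cf r 2 + 32768 * cf r 3)) = true := by decide +kernel

theorem chk_nodup : cds.Nodup := by decide +kernel

theorem chk_cds_len : cds.length = 48 := by decide +kernel

theorem chk_neg : ((List.range 48).all fun r =>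
    decide ((cf r 0 ≤ 0 ∧ cf r 1 ≤ 0 ∧ cf r 2 ≤ 0 ∧ cf r 3 ≤ 0) → r < 24)) = true := by decide +kernel

theorem cdv_vec {r : ℕ} (hr : r < 48) : cdv (vec chevF4 4 r) = cds.getD r 0 :=
  (of_decide_eq_true (List.all_eq_true.1 chk_cds r (List.mem_range.2 hr))).symm

theorem getD_mem {r : ℕ} (hr : r < 48) : cds.getD r 0 ∈ cds := by
  rw [List.getD_eq_getElem _ _ (by rw [chk_cds_len]; exact hr)]
  exact List.getElem_mem _

theorem isR_iff (z : ℤ) : isR z = true ↔ z ∈ cds := by
  unfold isR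
  rw [List.any_eq_true]
  constructor
  · rintro ⟨c, hc, h⟩
    rw [← of_decide_eq_true h]
    exact hc
  · intro h
    exact ⟨z, h, decide_eq_true rfl⟩

theorem ix_getD {r : ℕ} (hr : r < 48) : ix (cds.getD r 0) = r := by
  have hl : r < cds.length := by rw [chk_cds_len]; exact hr
  unfold ix
  rw [List.getD_eq_getElem _ _ hl]
  rw [List.findIdx_eq hl]
  refine ⟨by simp, fun j hj => ?_⟩
  have hne : cds[j]'(lt_trans hj hl) ≠ cds[r] := by
    intro h
    have := (List.Nodup.getElem_inj_iff chk_nodup).1 h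
    omega
  simpa using hne

theorem chk_sum : ((List.range 48).all fun f => (List.range 48).all fun g => !(isR (cds.getD f 0 + cds.getD g 0)) ||
    (fun s => decide (s < 48 ∧ cf s 0 = cf f 0 + cf g 0 ∧ cf s 1 = cf f 1 + cf g 1 ∧ cf s 2 = cf f 2 + cf g 2 ∧
      cf s 3 = cf f 3 + cf g 3)) (ix (cds.getD f 0 + cds.getD g 0))) = true := by decide +kernel

theorem chk_dif : ((List.range 4).all fun i => (List.range 4).all fun j =>
    !(isR (cds.getD (chevF4.simple i) 0 - cds.getD (chevF4.simple j) 0))) = true := by decide +kernel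

theorem chk_simple : ((List.range 4).all fun i => decide (chevF4.simple i < 48)) = true := by decide +kernel

theorem vec_sum {f g : ℕ} (hf : f < 48) (hg : g < 48) (h : isR (cds.getD f 0 + cds.getD g 0) = true) :
    ∃ s < 48, vec chevF4 4 s = vec chevF4 4 f + vec chevF4 4 g := by
  have h1 := List.all_eq_true.1 (List.all_eq_true.1 chk_sum f (List.mem_range.2 hf)) g (List.mem_range.2 hg)
  rw [h, Bool.not_true, Bool.false_or] at h1
  have h2 := of_decide_eq_true h1
  refine ⟨_, h2.1, ?_⟩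
  funext j
  obtain ⟨-, a0, a1, a2, a3⟩ := h2
  fin_cases j
  · exact a0
  · exact a1
  · exact a2
  · exact a3

section weyl

variable {W : Type*} [Group W] (cs : CoxeterSystem CoxeterMatrix.F₄ W)

theorem isR_of_root {x : Fin 4 → ℤ} (hx : IsRoot cs f4T.isCartan x) : isR (cdv x) = true := by
  obtain ⟨r, hr, rfl⟩ := (isRoot_iff f4T cs x).1 hx
  rw [isR_iff, cdv_vec hr]
  exact getD_mem hr

theorem root_of_isR {f g : ℕ} (hf : f < 48) (hg : g < 48)
    (h : isR (cdv (vec chevF4 4 f + vec chevF4 4 g)) = true) :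
    IsRoot cs f4T.isCartan (vec chevF4 4 f + vec chevF4 4 g) := by
  rw [cdv_add, cdv_vec hf, cdv_vec hg] at h
  obtain ⟨s, hs, e⟩ := vec_sum hf hg h
  rw [← e]
  exact isRoot_vec f4T cs hs

variable {w : W} {f : Fin 4 → ℕ} (hf : ∀ i, f i < 48)
  (hv : ∀ i, vec chevF4 4 (f i) = rep cs f4T.isCartan w (sr i))

include hf hv

theorem cds_f (i : Fin 4) : cds.getD (f i) 0 = cdv (rep cs f4T.isCartan w (sr i)) := by
  rw [← hv, cdv_vec (hf i)]

omit hf hv in
theorem cds_s (i : Fin 4) : cds.getD (chevF4.simple i) 0 = cdv (sr i) := by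
  rw [← cdv_vec (of_decide_eq_true (List.all_eq_true.1 chk_simple i.val (List.mem_range.2 i.2)) : chevF4.simple i < 48),
    vec_simple f4T i]

theorem ok2_of (i j : Fin 4) : ok2 i j (f i) (f j) = true := by
  have hsi : chevF4.simple i < 48 := of_decide_eq_true (List.all_eq_true.1 chk_simple i.val (List.mem_range.2 i.2))
  have hsj : chevF4.simple j < 48 := of_decide_eq_true (List.all_eq_true.1 chk_simple j.val (List.mem_range.2 j.2))
  unfold ok2
  rw [cds_f cs hf hv i, cds_f cs hf hv j, cds_s i, cds_s j, ← cdv_add, ← cdv_add, ← cdv_sub, ← map_add, ← map_sub,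
    Bool.and_eq_true]
  constructor
  · have h1 : isR (cdv (rep cs f4T.isCartan w (sr i + sr j))) = true ↔ isR (cdv (sr i + sr j : Fin 4 → ℤ)) = true := by
      constructor
      · intro h
        rw [map_add, ← hv, ← hv] at h
        have h2 := root_of_isR cs (hf i) (hf j) h
        rw [hv, hv, ← map_add] at h2
        have h3 := h2.act w⁻¹
        rw [rep_inv_apply] at h3
        exact isR_of_root cs h3
      · intro h
        rw [← vec_simple f4T i, ← vec_simple f4T j] at h
        have h2 := root_of_isR cs hsi hsj h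
        rw [vec_simple f4T i, vec_simple f4T j] at h2
        exact isR_of_root cs (h2.act w)
    rw [beq_iff_eq]
    rcases hA : isR (cdv (rep cs f4T.isCartan w (sr i + sr j))) with _ | _ <;>
      rcases hB : isR (cdv (sr i + sr j : Fin 4 → ℤ)) with _ | _
    · rfl
    · rw [hA, hB] at h1; simp at h1
    · rw [hA, hB] at h1; simp at h1
    · rfl
  · rw [Bool.not_eq_true']
    by_contra h
    rw [Bool.not_eq_false] at h
    have e0 : rep cs f4T.isCartan w (sr i - sr j) = vec chevF4 4 (f i) + vec chevF4 4 (chevF4.neg (f j)) := by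
      rw [vec_neg f4T (show f j < chevF4.nroots from hf j), map_sub, hv, hv, sub_eq_add_neg]
    have hneg : chevF4.neg (f j) < 48 := Cfsg.Agent.ChevalleyStructure.RootVec.neg_lt f4T.checked (hf j)
    rw [e0] at h
    have h2 := root_of_isR cs (hf i) hneg h
    rw [← e0] at h2
    have h3 := h2.act w⁻¹
    rw [rep_inv_apply] at h3
    have h4 := isR_of_root cs h3
    have h5 := List.all_eq_true.1 (List.all_eq_true.1 chk_dif i.val (List.mem_range.2 i.2)) j.val (List.mem_range.2 j.2)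
    rw [cds_s i, cds_s j, ← cdv_sub, h4] at h5
    simp at h5

/-- the list of the images -/
theorem img_eq {r : ℕ} (hr : r < 48) :
    img [f 0, f 1, f 2, f 3] r = cdv (rep cs f4T.isCartan w (vec chevF4 4 r)) := by
  have e : vec chevF4 4 r = (vec chevF4 4 r 0) • sr 0 + (vec chevF4 4 r 1) • sr 1 + (vec chevF4 4 r 2) • sr 2 +
      (vec chevF4 4 r 3) • sr 3 := by
    funext j
    fin_cases j <;> simp [sr]
  rw [e, map_add, map_add, map_add, map_smul, map_smul, map_smul, map_smul, cdv_add, cdv_add, cdv_add, cdv_smul,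
    cdv_smul, cdv_smul, cdv_smul, ← cds_f cs hf hv 0, ← cds_f cs hf hv 1, ← cds_f cs hf hv 2, ← cds_f cs hf hv 3]
  rfl

theorem sqo_of (hw : w * w = 1) : sqo [f 0, f 1, f 2, f 3] = true := by
  unfold sqo
  rw [Bool.and_eq_true]
  constructor
  · rw [List.all_eq_true]
    intro i hi
    have hi4 := List.mem_range.1 hi
    apply decide_eq_true
    have key : ∀ j : Fin 4, img [f 0, f 1, f 2, f 3] (f j) = cds.getD (chevF4.simple j) 0 := by
      intro j
      rw [img_eq cs hf hv (hf j), hv, ← rep_mul_apply, hw, map_one, Module.End.one_apply, cds_s]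
    interval_cases i
    · exact key 0
    · exact key 1
    · exact key 2
    · exact key 3
  · rw [List.all_eq_true]
    intro r hr
    rw [img_eq cs hf hv (List.mem_range.1 hr)]
    exact isR_of_root cs ((isRoot_vec f4T cs (show r < chevF4.nroots from List.mem_range.1 hr)).act w)

theorem cand_of (hP : ∀ i, rep cs f4T.isCartan w (sr i) = sr i ∨ rep cs f4T.isCartan w (sr i) ≤ 0) (i : Fin 4) :
    f i ∈ cand i := by
  have hsi : chevF4.simple i < 48 := of_decide_eq_true (List.all_eq_true.1 chk_simple i.val (List.mem_range.2 i.2))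
  unfold cand
  rw [List.mem_cons]
  rcases hP i with h | h
  · left
    refine vec_inj f4T (hf i) hsi ?_
    rw [hv, h, vec_simple f4T i]
  · right
    rw [← hv] at h
    rw [List.mem_range]
    exact of_decide_eq_true (List.all_eq_true.1 chk_neg (f i) (List.mem_range.2 (hf i))) ⟨h 0, h 1, h 2, h 3⟩

/-- **the finite check** -/
theorem fin_of (hw : w * w = 1)
    (hP : ∀ i, rep cs f4T.isCartan w (sr i) = sr i ∨ rep cs f4T.isCartan w (sr i) ≤ 0) :
    fin [f 0, f 1, f 2, f 3] = true := by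
  have c := chk_all
  unfold chkAll at c
  have c0 := List.all_eq_true.1 c (f 0) (cand_of cs hf hv hP 0)
  have c1 := List.all_eq_true.1 c0 (f 1) (cand_of cs hf hv hP 1)
  have o01 : ok2 0 1 (f 0) (f 1) = true := ok2_of cs hf hv 0 1
  have o02 : ok2 0 2 (f 0) (f 2) = true := ok2_of cs hf hv 0 2
  have o12 : ok2 1 2 (f 1) (f 2) = true := ok2_of cs hf hv 1 2
  have o03 : ok2 0 3 (f 0) (f 3) = true := ok2_of cs hf hv 0 3
  have o13 : ok2 1 3 (f 1) (f 3) = true := ok2_of cs hf hv 1 3
  have o23 : ok2 2 3 (f 2) (f 3) = true := ok2_of cs hf hv 2 3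
  rw [o01, Bool.not_true, Bool.false_or] at c1
  have c2 := List.all_eq_true.1 c1 (f 2) (cand_of cs hf hv hP 2)
  rw [o02, o12, Bool.and_true, Bool.not_true, Bool.false_or] at c2
  have c3 := List.all_eq_true.1 c2 (f 3) (cand_of cs hf hv hP 3)
  rw [o03, o13, o23, Bool.and_true, Bool.and_true, Bool.not_true, Bool.false_or, sqo_of cs hf hv hw, Bool.not_true,
    Bool.false_or] at c3
  exact c3

end weyl

/-! ### Groups -/

section groups

variable {K : Type u} [Field K]

theorem hG_one {D : ChevalleyDatum} (hD : InList D) (r : ℕ) : hG hD r (1 : K) = 1 := by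
  have e1 : xG hD r (1 : K) * xG hD r (-1) = 1 := by
    rw [xG_add, add_neg_cancel, xG_zero]
  have e2 : xG hD (D.neg r) (-(1 : K)⁻¹) * xG hD (D.neg r) (-(-1 : K)⁻¹) = 1 := by
    rw [xG_add, inv_neg, inv_one, _root_.neg_neg, neg_add_cancel, xG_zero]
  rw [hG_def, nG_def, nG_def]
  calc _ = xG hD r (1 : K) * xG hD (D.neg r) (-(1 : K)⁻¹) * (xG hD r 1 * xG hD r (-1)) *
        xG hD (D.neg r) (-(-1 : K)⁻¹) * xG hD r (-1) := by group
    _ = xG hD r (1 : K) * (xG hD (D.neg r) (-(1 : K)⁻¹) * xG hD (D.neg r) (-(-1 : K)⁻¹)) * xG hD r (-1) := by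
      rw [e1]; group
    _ = 1 := by rw [e2, mul_one, e1]

variable [Fintype K] (hK : Fintype.card K = 2)

include hK

theorem eq_one_of_ne_zero {t : K} (ht : t ≠ 0) : t = 1 := by
  classical
  have h1 : ({0, 1, t} : Finset K).card ≤ 2 := by
    rw [← hK]
    exact Finset.card_le_univ _
  by_contra h
  rw [Finset.card_insert_of_notMem (by simp [ht.symm]), Finset.card_insert_of_notMem (by simpa using Ne.symm h),
    Finset.card_singleton] at h1
  omega

theorem diag_bot {D : ChevalleyDatum} (hD : InList D) : D.diagonalSubgroup K = ⊥ := by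
  rw [eq_bot_iff]
  unfold ChevalleyDatum.diagonalSubgroup
  rw [Subgroup.closure_le]
  rintro g ⟨r, t, -, ht, e⟩
  rw [eq_one_of_ne_zero hK ht, ← eq_hG_iff hD, hG_one hD] at e
  exact e

theorem char_two : CharP K 2 := charP_of_card_eq_prime hK

variable {W : Type*} [Group W] (cs : CoxeterSystem CoxeterMatrix.F₄ W)

omit [Fintype K] hK in
theorem GG_top [Finite K] [CharP K 2] : Cfsg.Agent.Nodes.Bruhat.GG cs f4T.isCartan
    ((chevF4.diagonalSubgroup K).subgroupOf (chevF4.group K)) (fun x => (XV chevF4 4 K x).subgroupOf (chevF4.group K)) = ⊤ := by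
  rw [eq_top_iff, ← G1_eq_top f4T cs (K := K)]
  exact le_sup_right

/-- conjugation of root elements -/
theorem conj_xG {w : W} {m : ↥(chevF4.group K)}
    (hm : InvN.Gp cs f4T.isCartan ((chevF4.diagonalSubgroup K).subgroupOf (chevF4.group K))
      (fun x => (XV chevF4 4 K x).subgroupOf (chevF4.group K)) w m) {r s : ℕ} (hr : r < 48) (hs : s < 48)
    (e : vec chevF4 4 s = rep cs f4T.isCartan w (vec chevF4 4 r)) :
    (m : GL chevF4.Idx K) * xG f4T.inList r 1 * (m : GL chevF4.Idx K)⁻¹ = xG f4T.inList s 1 := by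
  have h1 := hm.2 _ (isRoot_vec f4T cs (show r < chevF4.nroots from hr))
  have hx : (⟨xG f4T.inList r 1, xG_mem_group f4T.inList r 1⟩ : ↥(chevF4.group K)) ∈
      (XV chevF4 4 K (vec chevF4 4 r)).subgroupOf (chevF4.group K) := by
    rw [Subgroup.mem_subgroupOf, XV_vec f4T K (show r < chevF4.nroots from hr)]
    exact xG_mem_rootSubgroup f4T.inList r 1
  have h2 := (conj_mem_cj (g := m)).2 hx
  rw [h1, ← e, Subgroup.mem_subgroupOf, XV_vec f4T K (show s < chevF4.nroots from hs),
    mem_rootSubgroup_iff f4T.inList] at h2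
  obtain ⟨t, ht⟩ := h2
  have ht' : (m : GL chevF4.Idx K) * xG f4T.inList r 1 * (m : GL chevF4.Idx K)⁻¹ = xG f4T.inList s t := ht
  have ht0 : t ≠ 0 := by
    rintro rfl
    rw [xG_zero, mul_inv_eq_one, mul_eq_left, xG_eq_one_iff f4T.inList (show r < chevF4.nroots from hr)] at ht'
    exact one_ne_zero ht'
  rw [ht', eq_one_of_ne_zero hK ht0]

theorem conj_sg {w : W} {m : ↥(chevF4.group K)}
    (hm : InvN.Gp cs f4T.isCartan ((chevF4.diagonalSubgroup K).subgroupOf (chevF4.group K))
      (fun x => (XV chevF4 4 K x).subgroupOf (chevF4.group K)) w m) {f : Fin 4 → ℕ} (hf : ∀ i, f i < 48)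
    (hv : ∀ i, vec chevF4 4 (f i) = rep cs f4T.isCartan w (sr i)) :
    ∀ wd : List (ℕ × ℕ), (∀ e ∈ wd, e.1 < 48 ∧ e.2 = 1) →
      (m : GL chevF4.Idx K) * sg f4T.inList 0 wd * (m : GL chevF4.Idx K)⁻¹ =
        sg f4T.inList 0 (mp [f 0, f 1, f 2, f 3] wd)
  | [], _ => by
    rw [sg_nil, mul_one, mul_inv_cancel]
    rfl
  | e :: l, h => by
    have h1 := h e List.mem_cons_self
    have ih := conj_sg hm hf hv l fun e he => h e (List.mem_cons_of_mem _ he)
    show _ = sg f4T.inList 0 ((ix (img [f 0, f 1, f 2, f 3] e.1), 1) :: mp [f 0, f 1, f 2, f 3] l)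
    rw [sg_cons, sg_cons, ← ih, h1.2]
    show _ = _ * xG f4T.inList (ix (img [f 0, f 1, f 2, f 3] e.1)) (tv 0 1)
    obtain ⟨s, hs, es⟩ := (isRoot_iff f4T cs _).1
      ((isRoot_vec f4T cs (show e.1 < chevF4.nroots from h1.1)).act w)
    have h3 : ix (img [f 0, f 1, f 2, f 3] e.1) = s := by
      rw [img_eq cs hf hv h1.1, ← es, cdv_vec hs, ix_getD hs]
    have h4 := conj_xG hK cs hm h1.1 hs es
    rw [h3]
    show _ = _ * xG f4T.inList s 1
    rw [← h4]
    show (m : GL chevF4.Idx K) * (sg f4T.inList 0 l * xG f4T.inList e.1 1) * (m : GL chevF4.Idx K)⁻¹ = _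
    group

omit [Field K] [Fintype K] hK in
theorem mp_ok {f : Fin 4 → ℕ} {w : W} (hf : ∀ i, f i < 48)
    (hv : ∀ i, vec chevF4 4 (f i) = rep cs f4T.isCartan w (sr i)) (wd : List (ℕ × ℕ))
    (h : ∀ e ∈ wd, e.1 < 48 ∧ e.2 = 1) : ∀ e ∈ mp [f 0, f 1, f 2, f 3] wd, e.1 < 48 ∧ e.2 = 1 := by
  intro e he
  obtain ⟨e', he', rfl⟩ := List.mem_map.1 he
  have h1 := h e' he'
  obtain ⟨s, hs, es⟩ := (isRoot_iff f4T cs _).1
    ((isRoot_vec f4T cs (show e'.1 < chevF4.nroots from h1.1)).act w)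
  have h3 : ix (img [f 0, f 1, f 2, f 3] e'.1) = s := by
    rw [img_eq cs hf hv h1.1, ← es, cdv_vec hs, ix_getD hs]
  refine ⟨?_, rfl⟩
  show ix (img [f 0, f 1, f 2, f 3] e'.1) < 48
  rw [h3]
  exact hs

/-- **The involutions of `F₄(2)`.** -/
theorem inv_F4 (a : ↥(chevF4.group K)) (haa : a * a = 1) (ha1 : a ≠ 1) :
    ∃ x : ↥(chevF4.group K), ∀ H : Subgroup ↥(chevF4.group K), x ∈ H → (∀ h ∈ H, a * h * a⁻¹ ∈ H) →
      13 ∣ Nat.card H ∧ 17 ∣ Nat.card H := by
  have : CharP K 2 := char_two hK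
  have : Fact (Nat.Prime 2) := ⟨Nat.prime_two⟩
  let cs : CoxeterSystem CoxeterMatrix.F₄ CoxeterMatrix.F₄.Group := CoxeterMatrix.F₄.toCoxeterSystem
  have := finite_W f4T cs
  have R := rgd (K := K) f4T cs 2
  have hGG := GG_top (K := K) cs
  have hd : InvN.Gp cs f4T.isCartan ((chevF4.diagonalSubgroup K).subgroupOf (chevF4.group K))
      (fun x => (XV chevF4 4 K x).subgroupOf (chevF4.group K)) 1 (1 : ↥(chevF4.group K)) := by
    refine ⟨cj_one _, fun x _ => ?_⟩
    rw [cj_one, map_one, Module.End.one_apply]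
  obtain ⟨g, -, w, m, hm, hgm, -, hww, hP⟩ := InvN.exists_conj R hd
    (show a * 1⁻¹ ∈ _ by rw [hGG]; exact Subgroup.mem_top _) haa
  have hex : ∀ i : Fin 4, ∃ r : ℕ, r < 48 ∧ vec chevF4 4 r = rep cs f4T.isCartan w (sr i) := fun i => by
    obtain ⟨r, hr, e⟩ := (isRoot_iff f4T cs _).1 ((isRoot_sr cs f4T.isCartan i).act w)
    exact ⟨r, hr, e⟩
  choose f hf hv using hex
  have hfin := fin_of cs hf hv hww hP
  unfold fin at hfin
  rw [Bool.or_eq_true] at hfin
  rcases hfin with h | h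
  · exfalso
    have hF := of_decide_eq_true h
    have hfs : ∀ i : Fin 4, f i = chevF4.simple i := by
      simp only [List.cons.injEq, and_true] at hF
      obtain ⟨a0, a1, a2, a3⟩ := hF
      intro i
      fin_cases i
      · exact a0
      · exact a1
      · exact a2
      · exact a3
    have hw1 : w = 1 := by
      refine eq_one_of_fix cs f4T.isCartan _ fun i => ?_
      show rep cs f4T.isCartan w (sr i) = sr i
      rw [← hv, hfs, vec_simple f4T i]
    subst hw1
    have hmT := hm.mem_T R (by rw [hGG]; exact Subgroup.mem_top _)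
    rw [diag_bot hK f4T.inList, Subgroup.bot_subgroupOf, Subgroup.mem_bot] at hmT
    apply ha1
    have : a = g⁻¹ * m * g := by rw [← hgm]; group
    rw [this, hmT]
    group
  · obtain ⟨d, hd, h2⟩ := List.any_eq_true.1 h
    rw [Bool.and_eq_true, Bool.and_eq_true, Bool.and_eq_true] at h2
    obtain ⟨-, c17, c13, cw⟩ := h2
    have hwd : ∀ e ∈ d.2.1, e.1 < 48 ∧ e.2 = 1 := fun e he => of_decide_eq_true (List.all_eq_true.1 cw e he)
    have hwd' := mp_ok cs hf hv d.2.1 hwd
    have hOk : ∀ l : List (ℕ × ℕ), (∀ e ∈ l, e.1 < 48 ∧ e.2 = 1) →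
        ∀ e ∈ l, e.1 < chevF4.nroots ∧ Ok (0 : K) e.2 := fun l hl e he => ⟨(hl e he).1, Or.inl (hl e he).2⟩
    have hT := tabOk f4T.inList
    have p17 : (17 : ℕ).Prime := by norm_num
    have p13 : (13 : ℕ).Prime := by norm_num
    have d17 := chk_dvd (K := K) hT (hOk _ hwd) p17 (show 52 = dm chevF4 from rfl) c17
    have d13 := chk_dvd (K := K) hT (hOk _ (fun e he => (List.mem_append.1 he).elim (hwd' e) (hwd e))) p13
      (show 52 = dm chevF4 from rfl) c13
    rw [sg_append, ← conj_sg hK cs hm hf hv d.2.1 hwd] at d13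
    let x : ↥(chevF4.group K) := ⟨sg f4T.inList 0 d.2.1, sg_mem f4T.inList 0 d.2.1⟩
    have hx17 : 17 ∣ orderOf x := by
      rw [← Subgroup.orderOf_coe x]
      exact d17
    have hx13 : 13 ∣ orderOf (x * (m * x * m⁻¹)) := by
      rw [← Subgroup.orderOf_coe (x * (m * x * m⁻¹))]
      exact d13
    have hord : ∀ y : ↥(chevF4.group K), orderOf (g⁻¹ * y * g) = orderOf y := fun y => by
      have := MulEquiv.orderOf_eq (MulAut.conj g⁻¹) y
      rwa [MulAut.conj_apply, inv_inv] at this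
    refine ⟨g⁻¹ * x * g, fun H hxH hinv => ⟨?_, ?_⟩⟩
    · have h1 := mul_mem hxH (hinv _ hxH)
      have e1 : g⁻¹ * x * g * (a * (g⁻¹ * x * g) * a⁻¹) = g⁻¹ * (x * (m * x * m⁻¹)) * g := by
        rw [← hgm]
        group
      rw [e1] at h1
      have h2 := Subgroup.orderOf_dvd_natCard H h1
      rw [hord] at h2
      exact hx13.trans h2
    · have h2 := Subgroup.orderOf_dvd_natCard H hxH
      rw [hord] at h2
      exact hx17.trans h2

end groups

end Cfsg.Agent.H378.F4two
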