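import Mathlib
import Cfsg.Agent.ChevalleyStructure.Columns
import Cfsg.Agent.ChevalleyStructure.Elts

/-!
# Root elements in characteristic 2 on bit vectors (helper378)

A vector of the adjoint module over `F₂(ω)` is a pair of masks `(a, b)` (`a + ω b`).  `sg hD wd` : the product of the root
elements `x_r(c)` of a word, `c ∈ {1, ω, ω + 1}`; `appW` its action on the pairs of masks.
-/

set_option autoImplicit false

namespace Cfsg.Agent.H378.MVec

open Cfsg Cfsg.Lie Cfsg.Agent.ChevalleyStructure Cfsg.Agent.ChevalleyStructure.Columns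
  Cfsg.Agent.ChevalleyStructure.Elts

universe u

/-! ### Bits -/

section bits

variable {K : Type u} [Field K]

/-- the bit `c` of the mask `m` in `K` -/
def bk (K : Type u) [Field K] (m c : ℕ) : K := if m.testBit c = true then 1 else 0

theorem bk_zero (c : ℕ) : bk K 0 c = 0 := by
  unfold bk
  rw [Nat.zero_testBit, if_neg (by simp)]

theorem bk_pow (a c : ℕ) : bk K (2 ^ a) c = if a = c then 1 else 0 := by
  unfold bk
  rw [Nat.testBit_two_pow]
  simp

variable [CharP K 2]

theorem bk_xor (a b c : ℕ) : bk K (a ^^^ b) c = bk K a c + bk K b c := by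
  have h2 : (1 : K) + 1 = 0 := CharTwo.add_self_eq_zero 1
  unfold bk
  rw [Nat.testBit_xor]
  cases a.testBit c <;> cases b.testBit c <;> simp [h2]

theorem odd_cast {c : ℤ} (h : ¬ c % 2 = 0) : (c : K) = 1 := by
  have h2 : (2 : ℤ) ∣ (c - 1) := by omega
  have h3 : ((c - 1 : ℤ) : K) = 0 := by
    rw [CharP.intCast_eq_zero_iff K 2]
    exact_mod_cast h2
  rw [Int.cast_sub, Int.cast_one, sub_eq_zero] at h3
  exact h3

theorem even_cast {c : ℤ} (h : c % 2 = 0) : (c : K) = 0 := by
  have h3 : (2 : ℤ) ∣ c := Int.dvd_of_emod_eq_zero h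
  rw [CharP.intCast_eq_zero_iff K 2]
  exact_mod_cast h3

end bits

/-! ### The columns -/

section cols

variable (D : ChevalleyDatum)

/-- the code of a coordinate -/
def cd : D.Idx → ℕ
  | Sum.inl i => i.val
  | Sum.inr s => D.rank + s.val

/-- the dimension -/
def dm : ℕ := D.rank + D.nroots

variable {D}

theorem cd_lt (v : D.Idx) : cd D v < dm D := by
  rcases v with i | s
  · exact lt_of_lt_of_le i.2 (Nat.le_add_right _ _)
  · exact Nat.add_lt_add_left s.2 _

theorem cd_inj : Function.Injective (cd D) := by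
  rintro (i | s) (j | s') h
  · exact congrArg Sum.inl (Fin.ext h)
  · have h1 : i.val < D.rank := i.2
    have h2 : i.val = D.rank + s'.val := h
    omega
  · have h1 : j.val < D.rank := j.2
    have h2 : D.rank + s.val = j.val := h
    omega
  · have h2 : D.rank + s.val = D.rank + s'.val := h
    exact congrArg Sum.inr (Fin.ext (by omega))

theorem exists_cd {c : ℕ} (h : c < dm D) : ∃ v : D.Idx, cd D v = c := by
  by_cases h4 : c < D.rank
  · exact ⟨Sum.inl ⟨c, h4⟩, rfl⟩
  · have h' : c < D.rank + D.nroots := h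
    refine ⟨Sum.inr ⟨c - D.rank, by omega⟩, ?_⟩
    show D.rank + (c - D.rank) = c
    omega

theorem sum_cd {K : Type*} [AddCommMonoid K] (f : ℕ → K) :
    ∑ v : D.Idx, f (cd D v) = ∑ c ∈ Finset.range (dm D), f c := by
  have h1 : ∑ v : D.Idx, f (cd D v) = ∑ c ∈ Finset.univ.image (cd D), f c :=
    (Finset.sum_image (fun a _ b _ h => cd_inj h)).symm
  rw [h1]
  refine Finset.sum_congr ?_ fun _ _ => rfl
  ext c
  rw [Finset.mem_image, Finset.mem_range]
  constructor
  · rintro ⟨v, -, rfl⟩
    exact cd_lt v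
  · intro h
    obtain ⟨v, hv⟩ := exists_cd h
    exact ⟨v, Finset.mem_univ _, hv⟩

/-- the mask of the odd coefficients of the coroot of `r` -/
def corM (D : ChevalleyDatum) (r : ℕ) : ℕ → ℕ
  | 0 => 0
  | n + 1 => if cor D r n % 2 = 0 then corM D r n else 2 ^ n ^^^ corM D r n

/-- the mask of the entry of exponent `1` resp. `2` of a chain -/
def chM (D : ChevalleyDatum) : List (ℕ × ℤ) → ℕ × ℕ
  | [] => (0, 0)
  | [e] => (if e.2 % 2 = 0 then 0 else 2 ^ (D.rank + e.1), 0)
  | e :: f :: _ => (if e.2 % 2 = 0 then 0 else 2 ^ (D.rank + e.1), if f.2 % 2 = 0 then 0 else 2 ^ (D.rank + f.1))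

/-- the masks of the entries with `t` resp. `t²` in the column `a` of `x_r(t)` -/
def colM (D : ChevalleyDatum) (r a : ℕ) : ℕ × ℕ :=
  if a < D.rank then (if car D a r % 2 = 0 then 0 else 2 ^ (D.rank + r), 0)
  else if a = D.rank + r then (0, 0)
  else if a = D.rank + D.negIdx.getD r 0 then (corM D r D.rank, 2 ^ (D.rank + r))
  else chM D (D.chainEntry r (a - D.rank))

variable {K : Type u} [Field K]

theorem dl_eq (v : D.Idx) (u : ℕ) : dl K D v u = bk K (2 ^ (D.rank + u)) (cd D v) := by
  rw [bk_pow]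
  rcases v with i | s
  · have h1 : i.val < D.rank := i.2
    have h2 : ¬ D.rank + u = cd D (Sum.inl i) := by
      show ¬ D.rank + u = i.val
      omega
    rw [dl_inl, if_neg h2]
  · rw [dl_inr]
    by_cases h : s.val = u
    · rw [if_pos h, if_pos (show D.rank + u = cd D (Sum.inr s) from (show D.rank + u = D.rank + s.val by omega))]
    · rw [if_neg h, if_neg (show ¬ D.rank + u = cd D (Sum.inr s) from (show ¬ D.rank + u = D.rank + s.val by omega))]

theorem delta_eq (v a : D.Idx) : (if v = a then (1 : K) else 0) = bk K (2 ^ cd D a) (cd D v) := by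
  rw [bk_pow]
  by_cases h : v = a
  · rw [if_pos h, if_pos (by rw [h])]
  · rw [if_neg h, if_neg (fun h' => h (cd_inj h').symm)]

variable [CharP K 2]

theorem cast_bk (c : ℤ) (u v : ℕ) : (c : K) * bk K (2 ^ u) v = bk K (if c % 2 = 0 then 0 else 2 ^ u) v := by
  by_cases h : c % 2 = 0
  · rw [if_pos h, even_cast h, bk_zero, zero_mul]
  · rw [if_neg h, odd_cast h, one_mul]

theorem bk_corM (r : ℕ) (c : ℕ) : ∀ n : ℕ, bk K (corM D r n) c = if c < n then (cor D r c : K) else 0
  | 0 => by
    rw [if_neg (by omega)]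
    exact bk_zero c
  | n + 1 => by
    have ih := bk_corM r c n
    show bk K (if cor D r n % 2 = 0 then corM D r n else 2 ^ n ^^^ corM D r n) c = _
    by_cases h : cor D r n % 2 = 0
    · rw [if_pos h, ih]
      by_cases hc : c < n
      · rw [if_pos hc, if_pos (by omega)]
      · rw [if_neg hc]
        by_cases hc' : c < n + 1
        · have : c = n := by omega
          subst this
          rw [if_pos hc', even_cast h]
        · rw [if_neg hc']
    · rw [if_neg h, bk_xor, ih, bk_pow]
      by_cases hc : c < n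
      · have h1 : ¬ n = c := by omega
        have h2 : c < n + 1 := by omega
        rw [if_pos hc, if_pos h2, if_neg h1, zero_add]
      · rw [if_neg hc, add_zero]
        by_cases hc' : c < n + 1
        · have : c = n := by omega
          subst this
          rw [if_pos hc', if_pos rfl, odd_cast h]
        · have h1 : ¬ n = c := by omega
          rw [if_neg hc', if_neg h1]

theorem chSum_eq (v : D.Idx) (t : K) (l : List (ℕ × ℤ)) (hl : l.length ≤ 2) :
    chSum (dl K D v) t 1 l = t * bk K (chM D l).1 (cd D v) + t ^ 2 * bk K (chM D l).2 (cd D v) := by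
  rcases l with - | ⟨e, - | ⟨f, - | ⟨g, l⟩⟩⟩
  · show (0 : K) = t * bk K 0 (cd D v) + t ^ 2 * bk K 0 (cd D v)
    rw [bk_zero]
    ring
  · rw [chSum_cons, chSum_nil]
    show (e.2 : K) * t ^ 1 * dl K D v e.1 + 0 = t * bk K (if e.2 % 2 = 0 then 0 else 2 ^ (D.rank + e.1)) (cd D v) +
      t ^ 2 * bk K 0 (cd D v)
    rw [bk_zero, ← cast_bk, dl_eq]
    ring
  · rw [chSum_cons, chSum_cons, chSum_nil]
    show (e.2 : K) * t ^ 1 * dl K D v e.1 + ((f.2 : K) * t ^ (1 + 1) * dl K D v f.1 + 0) =
      t * bk K (if e.2 % 2 = 0 then 0 else 2 ^ (D.rank + e.1)) (cd D v) +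
      t ^ 2 * bk K (if f.2 % 2 = 0 then 0 else 2 ^ (D.rank + f.1)) (cd D v)
    rw [← cast_bk, ← cast_bk, dl_eq, dl_eq]
    ring
  · simp at hl

/-- **the entries of `x_r(t)`** -/
theorem ent (r : Fin D.nroots) (t : K) (v a : D.Idx) (hs : sortedFrom 0 (row D r.val) = true)
    (hc : ∀ s : ℕ, (D.chainEntry r.val s).length ≤ 2) :
    D.xMat K r t v a = bk K (2 ^ cd D a) (cd D v) + t * bk K (colM D r.val (cd D a)).1 (cd D v) +
      t ^ 2 * bk K (colM D r.val (cd D a)).2 (cd D v) := by
  rcases a with i | s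
  · have hi : i.val < D.rank := i.2
    have hcol : colM D r.val (cd D (Sum.inl i)) = (if car D i.val r.val % 2 = 0 then 0 else 2 ^ (D.rank + r.val), 0) := by
      show colM D r.val i.val = _
      unfold colM
      rw [if_pos hi]
    rw [xMat_inl, hcol, delta_eq, bk_zero, ← cast_bk, dl_eq, CharTwo.sub_eq_add]
    ring
  · have h4 : ¬ D.rank + s.val < D.rank := by omega
    by_cases hsr : s = r
    · subst hsr
      have hcol : colM D s.val (cd D (Sum.inr s)) = (0, 0) := by
        show colM D s.val (D.rank + s.val) = _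
        unfold colM
        rw [if_neg h4, if_pos rfl]
      rw [xMat_self, dl_eq, hcol]
      show _ = bk K (2 ^ (D.rank + s.val)) (cd D v) + t * bk K 0 (cd D v) + t ^ 2 * bk K 0 (cd D v)
      rw [bk_zero]
      ring
    · have hsr' : ¬ D.rank + s.val = D.rank + r.val := fun h => hsr (Fin.ext (by omega))
      by_cases hn : s.val = D.negIdx.getD r.val 0
      · have hcol : colM D r.val (cd D (Sum.inr s)) = (corM D r.val D.rank, 2 ^ (D.rank + r.val)) := by
          show colM D r.val (D.rank + s.val) = _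
          unfold colM
          rw [if_neg h4, if_neg hsr', if_pos (by omega)]
        rw [xMat_neg D r t v s hn hsr, hcol, dl_eq, dl_eq, CharTwo.sub_eq_add, bk_corM]
        show bk K (2 ^ (D.rank + s.val)) (cd D v) + _ + _ = _
        congr 1
        congr 1
        rcases v with j | w
        · rw [Finset.sum_eq_single j]
          · rw [if_pos rfl, mul_one, if_pos (show cd D (Sum.inl j) < D.rank from j.2)]
            exact mul_comm _ _
          · intro b _ hb
            rw [if_neg (fun h => hb (Sum.inl.inj h).symm), mul_zero]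
          · intro h
            exact absurd (Finset.mem_univ _) h
        · rw [Finset.sum_eq_zero (fun i _ => by rw [if_neg (by simp), mul_zero]),
            if_neg (show ¬ cd D (Sum.inr w) < D.rank from (show ¬ D.rank + w.val < D.rank by omega)), mul_zero]
      · have hcol : colM D r.val (cd D (Sum.inr s)) = chM D (D.chainEntry r.val s.val) := by
          show colM D r.val (D.rank + s.val) = _
          unfold colM
          rw [if_neg h4, if_neg hsr', if_neg (by omega), Nat.add_sub_cancel_left]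
        rw [xMat_ne D r t v s hn hsr hs, chSum_eq v t _ (hc _), dl_eq, hcol, add_assoc]
        rfl

end cols

/-! ### Masks -/

section masks

/-- the value of the linear map with the columns `f a` on `m` -/
def xorS (f : ℕ → ℕ) (m : ℕ) : ℕ → ℕ
  | 0 => 0
  | n + 1 => (if m.testBit n = true then f n else 0) ^^^ xorS f m n

/-- sparse version -/
def spN (m : ℕ) : List (ℕ × ℕ) → ℕ
  | [] => 0
  | e :: l => cond (Nat.beq (Nat.land m e.1) 0) (spN m l) (Nat.xor e.2 (spN m l))

theorem land_pow (m a : ℕ) : Nat.beq (Nat.land m (2 ^ a)) 0 = !m.testBit a := by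
  have h1 : Nat.land m (2 ^ a) = m &&& 2 ^ a := rfl
  rw [h1, Nat.and_two_pow]
  cases h : m.testBit a
  · simp
  · have h2 : 2 ^ a ≠ 0 := by positivity
    have h3 : ((true : Bool).toNat * 2 ^ a) = 2 ^ a := by simp
    rw [h3]
    show Nat.beq (2 ^ a) 0 = false
    cases h4 : Nat.beq (2 ^ a) 0
    · rfl
    · exact absurd (Nat.eq_of_beq_eq_true h4) h2

theorem spN_append (m : ℕ) (l l' : List (ℕ × ℕ)) : spN m (l ++ l') = spN m l ^^^ spN m l' := by
  induction l with
  | nil => show spN m l' = 0 ^^^ spN m l'; rw [Nat.zero_xor]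
  | cons e l ih =>
    show cond (Nat.beq (Nat.land m e.1) 0) (spN m (l ++ l')) (Nat.xor e.2 (spN m (l ++ l'))) =
      cond (Nat.beq (Nat.land m e.1) 0) (spN m l) (Nat.xor e.2 (spN m l)) ^^^ spN m l'
    cases Nat.beq (Nat.land m e.1) 0
    · show e.2 ^^^ (spN m (l ++ l')) = (e.2 ^^^ spN m l) ^^^ spN m l'
      rw [ih, Nat.xor_assoc]
    · exact ih

/-- the sparse list of `f` -/
def spL (f : ℕ → ℕ) (n : ℕ) : List (ℕ × ℕ) :=
  (List.range n).filterMap fun a => if f a = 0 then none else some (2 ^ a, f a)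

theorem spN_spL (f : ℕ → ℕ) (m n : ℕ) : spN m (spL f n) = xorS f m n := by
  induction n with
  | zero => rfl
  | succ n ih =>
    have h1 : spL f (n + 1) = spL f n ++ (if f n = 0 then [] else [(2 ^ n, f n)]) := by
      unfold spL
      rw [List.range_succ, List.filterMap_append]
      congr 1
      by_cases h : f n = 0
      · simp [h]
      · simp [h]
    rw [h1, spN_append, ih]
    show _ = (if m.testBit n = true then f n else 0) ^^^ xorS f m n
    rw [Nat.xor_comm]
    congr 1
    by_cases h : f n = 0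
    · rw [if_pos h, h]
      show 0 = _
      split <;> rfl
    · rw [if_neg h]
      show cond (Nat.beq (Nat.land m (2 ^ n)) 0) 0 (f n ^^^ 0) = _
      rw [land_pow, Nat.xor_zero]
      cases m.testBit n <;> simp

variable {K : Type u} [Field K] [CharP K 2]

theorem bk_xorS (f : ℕ → ℕ) (m c n : ℕ) : bk K (xorS f m n) c = ∑ a ∈ Finset.range n, bk K (f a) c * bk K m a := by
  induction n with
  | zero => rw [Finset.range_zero, Finset.sum_empty]; exact bk_zero c
  | succ n ih =>
    rw [Finset.sum_range_succ, ← ih]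
    show bk K ((if m.testBit n = true then f n else 0) ^^^ xorS f m n) c = _
    rw [bk_xor, add_comm]
    congr 1
    by_cases h : m.testBit n = true
    · rw [if_pos h]
      have : bk K m n = 1 := if_pos h
      rw [this, mul_one]
    · rw [if_neg h]
      have : bk K m n = 0 := if_neg h
      rw [this, mul_zero, bk_zero]

omit [CharP K 2] in
theorem bk_diag (m c n : ℕ) (hc : c < n) : bk K m c = ∑ a ∈ Finset.range n, bk K (2 ^ a) c * bk K m a := by
  rw [Finset.sum_eq_single c]
  · rw [bk_pow, if_pos rfl, one_mul]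
  · intro b _ hb
    rw [bk_pow, if_neg hb, zero_mul]
  · intro h
    exact absurd (Finset.mem_range.2 hc) h

end masks

/-! ### Vectors -/

section vecs

variable {D : ChevalleyDatum} {K : Type u} [Field K]

/-- the vector `a + ω b` -/
def vm (D : ChevalleyDatum) (om : K) (p : ℕ × ℕ) : D.Idx → K := fun v => bk K p.1 (cd D v) + om * bk K p.2 (cd D v)

/-- the scalar of a code -/
def tv (om : K) (c : ℕ) : K := if c = 1 then 1 else if c = 2 then om else om + 1

/-- multiplication of a pair by the scalar of the code `c` -/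
def ml (c : ℕ) (p : ℕ × ℕ) : ℕ × ℕ :=
  if c = 1 then p else if c = 2 then (p.2, p.1 ^^^ p.2) else (p.1 ^^^ p.2, p.1)

/-- the codes for which the arithmetic is right -/
def Ok (om : K) (c : ℕ) : Prop := c = 1 ∨ (om * om = om + 1 ∧ (c = 2 ∨ c = 3))

/-- code of the square -/
def sqc (c : ℕ) : ℕ := if c = 1 then 1 else if c = 2 then 3 else 2

variable [CharP K 2]

theorem two_zero : (2 : K) = 0 := by
  have h := CharTwo.add_self_eq_zero (1 : K)
  rwa [one_add_one_eq_two] at h

theorem tv_sq {om : K} {c : ℕ} (h : Ok om c) : tv om c ^ 2 = tv om (sqc c) := by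
  have h2 := two_zero (K := K)
  rcases h with rfl | ⟨ho, rfl | rfl⟩
  · show (1 : K) ^ 2 = 1
    ring
  · show om ^ 2 = om + 1
    rw [sq, ho]
  · show (om + 1) ^ 2 = om
    linear_combination ho + (om + 1) * h2

omit [CharP K 2] in
theorem Ok.sq {om : K} {c : ℕ} (h : Ok om c) : Ok om (sqc c) := by
  rcases h with rfl | ⟨ho, rfl | rfl⟩
  · exact Or.inl rfl
  · exact Or.inr ⟨ho, Or.inr rfl⟩
  · exact Or.inr ⟨ho, Or.inl rfl⟩

theorem bk_ml {om : K} {c : ℕ} (h : Ok om c) (p : ℕ × ℕ) (i : ℕ) :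
    bk K (ml c p).1 i + om * bk K (ml c p).2 i = tv om c * (bk K p.1 i + om * bk K p.2 i) := by
  have h2 := two_zero (K := K)
  rcases h with rfl | ⟨ho, rfl | rfl⟩
  · show bk K p.1 i + om * bk K p.2 i = 1 * _
    ring
  · show bk K p.2 i + om * bk K (p.1 ^^^ p.2) i = om * _
    rw [bk_xor]
    linear_combination - bk K p.2 i * ho
  · show bk K (p.1 ^^^ p.2) i + om * bk K p.1 i = (om + 1) * _
    rw [bk_xor]
    linear_combination - bk K p.2 i * ho + (- om * bk K p.2 i) * h2

/-- the action of `x_r(c)` on the pairs of masks, `s1`, `s2` the sparse tables of `r` -/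
def appR (c : ℕ) (s : List (ℕ × ℕ) × List (ℕ × ℕ)) (p : ℕ × ℕ) : ℕ × ℕ :=
  let u := ml c (spN p.1 s.1, spN p.2 s.1)
  let w := ml (sqc c) (spN p.1 s.2, spN p.2 s.2)
  (Nat.xor (Nat.xor p.1 u.1) w.1, Nat.xor (Nat.xor p.2 u.2) w.2)

/-- the sparse tables of `r` are right -/
def Row (D : ChevalleyDatum) (r : ℕ) (s : List (ℕ × ℕ) × List (ℕ × ℕ)) : Prop :=
  s.1 = spL (fun a => (colM D r a).1) (dm D) ∧ s.2 = spL (fun a => (colM D r a).2) (dm D)

theorem mulVec_x (hD : InList D) {r : ℕ} (hr : r < D.nroots) (hs : sortedFrom 0 (row D r) = true)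
    (hc : ∀ s : ℕ, (D.chainEntry r s).length ≤ 2) {s : List (ℕ × ℕ) × List (ℕ × ℕ)} (hR : Row D r s) {om : K}
    {c : ℕ} (h : Ok om c) (p : ℕ × ℕ) :
    ((xG hD r (tv om c) : GL D.Idx K) : Matrix D.Idx D.Idx K).mulVec (vm D om p) = vm D om (appR c s p) := by
  funext v
  have e1 : ((xG hD r (tv om c) : GL D.Idx K) : Matrix D.Idx D.Idx K) = D.xMat K ⟨r, hr⟩ (tv om c) := by
    rw [coe_xG]
    exact dif_pos hr
  rw [e1]
  show ∑ a : D.Idx, D.xMat K ⟨r, hr⟩ (tv om c) v a * vm D om p a = _
  have e2 : ∀ a : D.Idx, D.xMat K ⟨r, hr⟩ (tv om c) v a * vm D om p a =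
      (fun a : ℕ => (bk K (2 ^ a) (cd D v) + tv om c * bk K (colM D r a).1 (cd D v) +
        tv om c ^ 2 * bk K (colM D r a).2 (cd D v)) * (bk K p.1 a + om * bk K p.2 a)) (cd D a) := by
    intro a
    rw [ent ⟨r, hr⟩ (tv om c) v a hs hc]
    rfl
  refine ((Finset.sum_congr rfl fun a _ => e2 a).trans (sum_cd (D := D)
    (fun a : ℕ => (bk K (2 ^ a) (cd D v) + tv om c * bk K (colM D r a).1 (cd D v) +
        tv om c ^ 2 * bk K (colM D r a).2 (cd D v)) * (bk K p.1 a + om * bk K p.2 a)))).trans ?_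
  have hv := cd_lt v
  show _ = bk K (appR c s p).1 (cd D v) + om * bk K (appR c s p).2 (cd D v)
  generalize cd D v = i at hv ⊢
  have k1 : ∀ q : ℕ, bk K (spN q s.1) i = ∑ a ∈ Finset.range (dm D), bk K (colM D r a).1 i * bk K q a := by
    intro q
    rw [hR.1, spN_spL, bk_xorS]
  have k2 : ∀ q : ℕ, bk K (spN q s.2) i = ∑ a ∈ Finset.range (dm D), bk K (colM D r a).2 i * bk K q a := by
    intro q
    rw [hR.2, spN_spL, bk_xorS]
  have a1 : (appR c s p).1 = (p.1 ^^^ (ml c (spN p.1 s.1, spN p.2 s.1)).1) ^^^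
    (ml (sqc c) (spN p.1 s.2, spN p.2 s.2)).1 := rfl
  have a2 : (appR c s p).2 = (p.2 ^^^ (ml c (spN p.1 s.1, spN p.2 s.1)).2) ^^^
    (ml (sqc c) (spN p.1 s.2, spN p.2 s.2)).2 := rfl
  have m1 := bk_ml h (spN p.1 s.1, spN p.2 s.1) i
  have m2 := bk_ml h.sq (spN p.1 s.2, spN p.2 s.2) i
  simp only at m1 m2
  rw [k1, k1] at m1
  rw [k2, k2, ← tv_sq h] at m2
  have d1 := bk_diag (K := K) p.1 i (dm D) hv
  have d2 := bk_diag (K := K) p.2 i (dm D) hv
  have hR : bk K (appR c s p).1 i + om * bk K (appR c s p).2 i = (bk K p.1 i + om * bk K p.2 i) +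
      (bk K (ml c (spN p.1 s.1, spN p.2 s.1)).1 i + om * bk K (ml c (spN p.1 s.1, spN p.2 s.1)).2 i) +
      (bk K (ml (sqc c) (spN p.1 s.2, spN p.2 s.2)).1 i + om * bk K (ml (sqc c) (spN p.1 s.2, spN p.2 s.2)).2 i) := by
    rw [a1, a2, bk_xor, bk_xor, bk_xor, bk_xor]
    ring
  rw [hR, m1, m2, d1, d2]
  rw [Finset.mul_sum, Finset.mul_sum, Finset.mul_sum, ← Finset.sum_add_distrib, ← Finset.sum_add_distrib,
    ← Finset.sum_add_distrib, Finset.mul_sum, Finset.mul_sum, ← Finset.sum_add_distrib, ← Finset.sum_add_distrib]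
  refine Finset.sum_congr rfl fun a _ => ?_
  ring

end vecs

/-! ### Words -/

section words

/-- forces the evaluation of its argument -/
def frc {α : Type} (f : ℕ → α) : ℕ → α
  | 0 => f 0
  | k + 1 => f (k + 1)

theorem frc_eq {α : Type} (f : ℕ → α) (n : ℕ) : frc f n = f n := by
  cases n <;> rfl

/-- forces both components -/
def fc2 {α : Type} (k : ℕ × ℕ → α) (p : ℕ × ℕ) : α := frc (fun a => frc (fun b => k (a, b)) p.2) p.1

theorem fc2_eq {α : Type} (k : ℕ × ℕ → α) (p : ℕ × ℕ) : fc2 k p = k p := by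
  unfold fc2
  rw [frc_eq, frc_eq]

/-- the action of a word (first letter first) -/
def rW (tab : List (List (ℕ × ℕ) × List (ℕ × ℕ))) : List (ℕ × ℕ) → ℕ × ℕ → ℕ × ℕ
  | [], p => p
  | e :: l, p => fc2 (rW tab l) (appR e.2 (tab.getD e.1 ([], [])) p)

/-- the iterated action -/
def it (tab : List (List (ℕ × ℕ) × List (ℕ × ℕ))) (wd : List (ℕ × ℕ)) : ℕ → ℕ × ℕ → ℕ × ℕ
  | 0, p => p
  | n + 1, p => fc2 (it tab wd n) (rW tab wd p)

/-- the check : the word has an orbit of length `p` -/
def chk (tab : List (List (ℕ × ℕ) × List (ℕ × ℕ))) (dim p : ℕ) (wd : List (ℕ × ℕ)) (v : ℕ × ℕ) (i : ℕ) : Bool :=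
  fc2 (fun q => Nat.beq q.1 v.1 && Nat.beq q.2 v.2) (it tab wd p v) &&
    (fc2 (fun q => (Nat.testBit q.1 i != Nat.testBit v.1 i) && (Nat.testBit q.2 i == Nat.testBit v.2 i)) (rW tab wd v) &&
    Nat.blt i dim)

variable {D : ChevalleyDatum} {K : Type u} [Field K]

/-- the product of root elements, the last letter first -/
def sg (hD : InList D) (om : K) : List (ℕ × ℕ) → GL D.Idx K
  | [] => 1
  | e :: l => sg hD om l * xG hD e.1 (tv om e.2)

theorem sg_nil (hD : InList D) (om : K) : sg hD om [] = 1 := rfl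

theorem sg_cons (hD : InList D) (om : K) (e : ℕ × ℕ) (l : List (ℕ × ℕ)) :
    sg hD om (e :: l) = sg hD om l * xG hD e.1 (tv om e.2) := rfl

theorem sg_append (hD : InList D) (om : K) (l l' : List (ℕ × ℕ)) : sg hD om (l ++ l') = sg hD om l' * sg hD om l := by
  induction l with
  | nil => rw [List.nil_append, sg_nil, mul_one]
  | cons e l ih => rw [List.cons_append, sg_cons, sg_cons, ih, mul_assoc]

/-- the table is right -/
structure TabOk (D : ChevalleyDatum) (tab : List (List (ℕ × ℕ) × List (ℕ × ℕ))) : Prop where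
  inl : InList D
  srt : ∀ r < D.nroots, sortedFrom 0 (row D r) = true
  len : ∀ r < D.nroots, ∀ s : ℕ, (D.chainEntry r s).length ≤ 2
  row : ∀ r < D.nroots, Row D r (tab.getD r ([], []))

variable {tab : List (List (ℕ × ℕ) × List (ℕ × ℕ))} [CharP K 2]

theorem mulVec_sg (hT : TabOk D tab) {om : K} : ∀ (wd : List (ℕ × ℕ)), (∀ e ∈ wd, e.1 < D.nroots ∧ Ok om e.2) →
    ∀ p : ℕ × ℕ, ((sg hT.inl om wd : GL D.Idx K) : Matrix D.Idx D.Idx K).mulVec (vm D om p) = vm D om (rW tab wd p)
  | [], _, p => by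
    rw [sg_nil]
    show (1 : Matrix D.Idx D.Idx K).mulVec (vm D om p) = vm D om p
    exact Matrix.one_mulVec _
  | e :: l, h, p => by
    have h1 := h e List.mem_cons_self
    rw [sg_cons, Units.val_mul, ← Matrix.mulVec_mulVec,
      mulVec_x hT.inl h1.1 (hT.srt _ h1.1) (hT.len _ h1.1) (hT.row _ h1.1) h1.2,
      mulVec_sg hT l fun e he => h e (List.mem_cons_of_mem _ he)]
    show _ = vm D om (fc2 (rW tab l) (appR e.2 (tab.getD e.1 ([], [])) p))
    rw [fc2_eq]

theorem mulVec_it (hT : TabOk D tab) {om : K} {wd : List (ℕ × ℕ)} (h : ∀ e ∈ wd, e.1 < D.nroots ∧ Ok om e.2) :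
    ∀ (n : ℕ) (p : ℕ × ℕ), (((sg hT.inl om wd) ^ n : GL D.Idx K) : Matrix D.Idx D.Idx K).mulVec (vm D om p) =
      vm D om (it tab wd n p)
  | 0, p => by
    rw [pow_zero]
    show (1 : Matrix D.Idx D.Idx K).mulVec (vm D om p) = vm D om p
    exact Matrix.one_mulVec _
  | n + 1, p => by
    rw [pow_succ, Units.val_mul, ← Matrix.mulVec_mulVec, mulVec_sg hT wd h, mulVec_it hT h n]
    show _ = vm D om (fc2 (it tab wd n) (rW tab wd p))
    rw [fc2_eq]

omit [CharP K 2] in
theorem dvd_orderOf {I : Type*} [Fintype I] [DecidableEq I] {x : GL I K} {p : ℕ} (hp : p.Prime) {v : I → K}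
    (h1 : ((x ^ p : GL I K) : Matrix I I K).mulVec v = v) (h2 : (x : Matrix I I K).mulVec v ≠ v) : p ∣ orderOf x := by
  have key : ∀ n : ℕ, (fun u : I → K => (x : Matrix I I K).mulVec u)^[n] v = ((x ^ n : GL I K) : Matrix I I K).mulVec v := by
    intro n
    induction n with
    | zero =>
      rw [pow_zero]
      show v = (1 : Matrix I I K).mulVec v
      rw [Matrix.one_mulVec]
    | succ n ih =>
      rw [Function.iterate_succ_apply', ih, pow_succ', Units.val_mul, ← Matrix.mulVec_mulVec]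
  have e1 : Function.IsPeriodicPt (fun u : I → K => (x : Matrix I I K).mulVec u) p v := by
    show (fun u : I → K => (x : Matrix I I K).mulVec u)^[p] v = v
    rw [key, h1]
  have e2 : Function.IsPeriodicPt (fun u : I → K => (x : Matrix I I K).mulVec u) (orderOf x) v := by
    show (fun u : I → K => (x : Matrix I I K).mulVec u)^[orderOf x] v = v
    rw [key, pow_orderOf_eq_one]
    show (1 : Matrix I I K).mulVec v = v
    rw [Matrix.one_mulVec]
  have e3 := e1.minimalPeriod_dvd
  rcases (Nat.dvd_prime hp).1 e3 with h | h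
  · exfalso
    apply h2
    have := Function.minimalPeriod_eq_one_iff_isFixedPt.1 h
    exact this
  · rw [← h]
    exact e2.minimalPeriod_dvd

theorem chk_dvd (hT : TabOk D tab) {om : K} {wd : List (ℕ × ℕ)} (h : ∀ e ∈ wd, e.1 < D.nroots ∧ Ok om e.2)
    {p : ℕ} (hp : p.Prime) {v : ℕ × ℕ} {i dim : ℕ} (hdim : dim = dm D) (hc : chk tab dim p wd v i = true) :
    p ∣ orderOf (sg hT.inl om wd) := by
  unfold chk at hc
  rw [Bool.and_eq_true, Bool.and_eq_true, fc2_eq, fc2_eq, Bool.and_eq_true, Bool.and_eq_true] at hc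
  obtain ⟨⟨c1, c2⟩, ⟨c3, c4⟩, c5⟩ := hc
  have e1 := Nat.eq_of_beq_eq_true c1
  have e2 := Nat.eq_of_beq_eq_true c2
  have e5 : i < dm D := by
    rw [← hdim]
    exact Nat.le_of_ble_eq_true c5
  refine dvd_orderOf hp (v := vm D om v) ?_ ?_
  · rw [mulVec_it hT h, show it tab wd p v = v from Prod.ext e1 e2]
  · rw [mulVec_sg hT wd h]
    intro h0
    obtain ⟨a, rfl⟩ := exists_cd e5
    have h3 := congrFun h0 a
    have h3' : bk K (rW tab wd v).1 (cd D a) + om * bk K (rW tab wd v).2 (cd D a) =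
      bk K v.1 (cd D a) + om * bk K v.2 (cd D a) := h3
    have h4 : (rW tab wd v).2.testBit (cd D a) = v.2.testBit (cd D a) := by simpa using c4
    have h5 : bk K (rW tab wd v).2 (cd D a) = bk K v.2 (cd D a) := by
      unfold bk
      rw [h4]
    rw [h5] at h3'
    have h6 := add_right_cancel h3'
    have h7 : (rW tab wd v).1.testBit (cd D a) ≠ v.1.testBit (cd D a) := by simpa using c3
    apply h7
    unfold bk at h6
    cases hA : (rW tab wd v).1.testBit (cd D a) <;> cases hB : v.1.testBit (cd D a) <;> rw [hA, hB] at h6 <;>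
      simp at h6 ⊢

theorem sg_mem (hD : InList D) (om : K) (wd : List (ℕ × ℕ)) : sg hD om wd ∈ D.group K := by
  induction wd with
  | nil => exact one_mem _
  | cons e l ih => exact mul_mem ih (xG_mem_group hD _ _)

end words

end Cfsg.Agent.H378.MVec
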